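import Cfsg.Agent.H775.CubeMain
import Cfsg.Agent.H775.CubeConf

set_option autoImplicit false
set_option linter.unusedSectionVars false

/-!
# Configurations with three lines: uniqueness up to conjugation
-/

namespace Cfsg.Agent.H775.Cube

open Matrix

variable {p : ℕ} [hp : Fact p.Prime]
variable {W W' : Subgroup (GL (Fin 2) (ZMod p))} {L L' : Set (Fin 2 → ZMod p)}

/-- Three pairwise nonproportional vectors. -/
def ThreeV (L : Set (Fin 2 → ZMod p)) : Prop :=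
  ∃ a ∈ L, ∃ b ∈ L, ∃ c ∈ L, a 0 * b 1 - a 1 * b 0 ≠ 0 ∧ a 0 * c 1 - a 1 * c 0 ≠ 0 ∧ b 0 * c 1 - b 1 * c 0 ≠ 0

theorem map_conj_mul (g h : GL (Fin 2) (ZMod p)) (W : Subgroup (GL (Fin 2) (ZMod p))) :
    W.map (MulAut.conj (g * h)).toMonoidHom =
      (W.map (MulAut.conj h).toMonoidHom).map (MulAut.conj g).toMonoidHom := by
  rw [Subgroup.map_map]
  congr 1
  ext x : 1
  change (g * h) * x * (g * h)⁻¹ = g * (h * x * h⁻¹) * g⁻¹
  group

theorem map_conj_one (W : Subgroup (GL (Fin 2) (ZMod p))) : W.map (MulAut.conj (1 : GL (Fin 2) (ZMod p))).toMonoidHom = W := by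
  ext x
  constructor
  · rintro ⟨w, hw, rfl⟩
    change 1 * w * 1⁻¹ ∈ W
    simpa using hw
  · intro hx
    refine ⟨x, hx, ?_⟩
    change 1 * x * 1⁻¹ = x
    simp

theorem det_mulVec (g : GL (Fin 2) (ZMod p)) (u v : Fin 2 → ZMod p) :
    ((g : Matrix (Fin 2) (Fin 2) (ZMod p)) *ᵥ u) 0 * ((g : Matrix (Fin 2) (Fin 2) (ZMod p)) *ᵥ v) 1 -
      ((g : Matrix (Fin 2) (Fin 2) (ZMod p)) *ᵥ u) 1 * ((g : Matrix (Fin 2) (Fin 2) (ZMod p)) *ᵥ v) 0 =
      (g : Matrix (Fin 2) (Fin 2) (ZMod p)).det * (u 0 * v 1 - u 1 * v 0) := by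
  rw [mulVec_zero_apply, mulVec_zero_apply, mulVec_one_apply, mulVec_one_apply, Matrix.det_fin_two]
  ring

theorem gl_det_ne (g : GL (Fin 2) (ZMod p)) : (g : Matrix (Fin 2) (Fin 2) (ZMod p)).det ≠ 0 := by
  intro h
  have h3 : IsUnit (g : Matrix (Fin 2) (Fin 2) (ZMod p)).det := by
    rw [← Matrix.isUnit_iff_isUnit_det]
    exact ⟨g, rfl⟩
  rw [h] at h3
  exact not_isUnit_zero h3

/-- Standard position with `(1,1)` in `L`. -/
theorem exists_std_one (hp2 : p ≠ 2) (h : VConf W L) (h3 : ThreeV L) :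
    ∃ g : GL (Fin 2) (ZMod p), Std (W.map (MulAut.conj g).toMonoidHom) (img g L) ∧ ![1, 1] ∈ img g L := by
  obtain ⟨a, ha, b, hb, c, hc, hab, hac, hbc⟩ := h3
  obtain ⟨g, hga, hstd⟩ := exists_std hp2 h ha
  have hb1 := det_mulVec g a b
  have hc1 := det_mulVec g a c
  have hbc1 := det_mulVec g b c
  rw [hga] at hb1 hc1
  simp only [Matrix.cons_val_zero, Matrix.cons_val_one, one_mul, zero_mul, sub_zero] at hb1 hc1
  have hd := gl_det_ne g
  have hb1' : ((g : Matrix (Fin 2) (Fin 2) (ZMod p)) *ᵥ b) 1 ≠ 0 := by rw [hb1]; exact mul_ne_zero hd hab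
  have hc1' : ((g : Matrix (Fin 2) (Fin 2) (ZMod p)) *ᵥ c) 1 ≠ 0 := by rw [hc1]; exact mul_ne_zero hd hac
  have hex : ∃ u ∈ img g L, u 0 ≠ 0 ∧ u 1 ≠ 0 := by
    by_cases hb0 : ((g : Matrix (Fin 2) (Fin 2) (ZMod p)) *ᵥ b) 0 = 0
    · refine ⟨_, ⟨c, hc, rfl⟩, ?_, hc1'⟩
      intro hc0
      change ((g : Matrix (Fin 2) (Fin 2) (ZMod p)) *ᵥ c) 0 = 0 at hc0
      rw [hb0, hc0, zero_mul, mul_zero, sub_zero] at hbc1
      exact mul_ne_zero hd hbc hbc1.symm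
    · exact ⟨_, ⟨b, hb, rfl⟩, hb0, hb1'⟩
  obtain ⟨u, hu, hu0, hu1⟩ := hex
  obtain ⟨t, ht⟩ := exists_diag (inv_ne_zero hu0) (inv_ne_zero hu1)
  have h2 := hstd.rescale (inv_ne_zero hu0) (inv_ne_zero hu1) ht
  rw [← map_conj_mul, ← img_mul] at h2
  refine ⟨t * g, h2, ?_⟩
  rw [img_mul]
  refine ⟨u, hu, ?_⟩
  change (t : Matrix (Fin 2) (Fin 2) (ZMod p)) *ᵥ u = _
  rw [ht]
  apply vec_ext
  · rw [mulVec_zero_apply]; simp [hu0]
  · rw [mulVec_one_apply]; simp [hu1]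

/-- If both configurations become equal after a change of coordinates, they are conjugate. -/
theorem conj_of_eq {g g' : GL (Fin 2) (ZMod p)}
    (h1 : W.map (MulAut.conj g).toMonoidHom = W'.map (MulAut.conj g').toMonoidHom) (h2 : img g L = img g' L') :
    W' = W.map (MulAut.conj (g'⁻¹ * g)).toMonoidHom ∧ L' = img (g'⁻¹ * g) L := by
  constructor
  · rw [map_conj_mul, h1, ← map_conj_mul, inv_mul_cancel, map_conj_one]
  · rw [img_mul, h2, ← img_mul, inv_mul_cancel, img_one]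

/-- **Uniqueness** for `p = 5, 13`. -/
theorem conj_of_three_vec (hp' : p = 5 ∨ p = 13) (h : VConf W L) (h3 : ThreeV L) (h' : VConf W' L') (h3' : ThreeV L') :
    ∃ g : GL (Fin 2) (ZMod p), W' = W.map (MulAut.conj g).toMonoidHom ∧ L' = img g L := by
  have hp3 : p = 3 ∨ p = 5 ∨ p = 13 := Or.inr hp'
  have hp2 : p ≠ 2 := by rcases hp' with h | h <;> omega
  obtain ⟨g, hg, hg1⟩ := exists_std_one hp2 h h3
  obtain ⟨g', hg', hg1'⟩ := exists_std_one hp2 h' h3'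
  have e1 := hg.eq_W1 hp' hg1
  have e2 := hg'.eq_W1 hp' hg1'
  have e3 := hg.eq_L0 hp3 hg1
  have e4 := hg'.eq_L0 hp3 hg1'
  exact ⟨_, conj_of_eq (e1.trans e2.symm) (e3.trans e4.symm)⟩

end Cfsg.Agent.H775.Cube
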